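import Cfsg.Agent.Lib.OreSU.Corner
import Cfsg.Agent.Lib.OreOrth.UTrick

/-!
For every companion endomorphism some cyclic endomorphism is a commutator with second entry it and first entry
unipotent.
-/

set_option autoImplicit false
set_option linter.unusedSectionVars false

namespace CfsgLib.OreSU

open Polynomial Module CfsgLib.OreOrth

variable {F : Type*} [Field F]

/-- For every companion endomorphism with square determinant some cyclic endomorphism is a commutator with second
entry it. -/
theorem exists_comp_rep {m : ℕ} (hm : 0 < m) (p : Fin m → F) (hp : p ⟨0, hm⟩ ≠ 0) :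
    ∃ r : Fin m → F, r ⟨0, hm⟩ = (-1) ^ m ∧ Rep (cpoly p) (comp r) 1 (LinearMap.det (comp p)) := by
  have hCu : IsUnit (comp p) := by
    rw [LinearMap.isUnit_iff_isUnit_det, det_comp p hm, isUnit_iff_ne_zero]
    exact mul_ne_zero (pow_ne_zero _ (neg_ne_zero.2 one_ne_zero)) hp
  have hUu : IsUnit (derU m : End F (Fin m → F)) := by
    rw [LinearMap.isUnit_iff_isUnit_det, det_derU]
    exact isUnit_one
  set U := hUu.unit with hU
  set C := hCu.unit with hC
  have hUv : (U : End F (Fin m → F)) = derU m := rfl
  have hCv : (C : End F (Fin m → F)) = comp p := rfl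
  set T : (End F (Fin m → F))ˣ := U * C * U⁻¹ * C⁻¹
  let l : (Fin m → F) →ₗ[F] F := LinearMap.proj ⟨0, hm⟩ ∘ₗ (↑U⁻¹ : End F (Fin m → F))
  have hobs : ∀ x, (∀ k : ℕ, l (((T : End F (Fin m → F)) ^ k) x) = 0) → x = 0 := by
    let K : Submodule F (Fin m → F) :=
      ⨅ k : ℕ, LinearMap.ker (l ∘ₗ (T : End F (Fin m → F)) ^ k)
    have hK : ∀ x, x ∈ K ↔ ∀ k : ℕ, l (((T : End F (Fin m → F)) ^ k) x) = 0 := fun x => by
      simp [K, Submodule.mem_iInf]
    have hinv : ∀ x ∈ K, (T : End F (Fin m → F)) x ∈ K := fun x hx => (hK _).2 fun k => by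
      rw [← Module.End.mul_apply, ← pow_succ]
      exact (hK x).1 hx (k + 1)
    have hsur : ∀ x ∈ K, (↑T⁻¹ : End F (Fin m → F)) x ∈ K := by
      intro x hx
      let f : K →ₗ[F] K := (T : End F (Fin m → F)).restrict hinv
      have hf : Function.Surjective f := by
        rw [← LinearMap.injective_iff_surjective]
        intro a b hab
        apply Subtype.ext
        have h := congrArg (fun y : K => (↑T⁻¹ : End F (Fin m → F)) (y : Fin m → F)) hab
        simpa [f] using h
      obtain ⟨z, hz⟩ := hf ⟨x, hx⟩
      have hz' : (T : End F (Fin m → F)) (z : Fin m → F) = x := congrArg Subtype.val hz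
      rw [← hz', inv_apply_unit]
      exact z.2
    suffices ∀ n, ∀ x ∈ K, (∀ i : Fin m, n ≤ (i : ℕ) → x i = 0) → x = 0 from
      fun x hx => this m x ((hK x).2 hx) (fun i hi => absurd i.isLt (by omega))
    intro n
    induction n with
    | zero => exact fun x _ hx => funext fun i => hx i (Nat.zero_le _)
    | succ n ih =>
      intro x hx hsupp
      set v := (↑U⁻¹ : End F (Fin m → F)) x with hv
      have hxv : derU m v = x := by rw [← hUv, hv, unit_apply_inv]
      have hv0 : v ⟨0, hm⟩ = 0 := by simpa [l, hv] using (hK x).1 hx 0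
      have hvs : ∀ j, ∀ i : Fin m, n + 1 ≤ (i : ℕ) → m ≤ (i : ℕ) + j → v i = 0 := by
        intro j
        induction j with
        | zero => intro i _ h; omega
        | succ j ihj =>
          intro i hi h
          have e := congrFun hxv i
          rw [derU_apply, hsupp i hi] at e
          split_ifs at e with hlt
          · rw [ihj ⟨(i : ℕ) + 1, hlt⟩ (by simp; omega) (by simp; omega), mul_zero, add_zero] at e
            exact e
          · simpa using e
      let w : Fin m → F := fun i => if h : (i : ℕ) + 1 < m then v ⟨(i : ℕ) + 1, h⟩ else 0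
      have hwl : w ⟨m - 1, by omega⟩ = 0 := by
        simp only [w]
        rw [dif_neg (by omega)]
      have hCw : comp p w = v := by
        funext i
        rw [comp_apply p hm, hwl, mul_zero, sub_zero]
        split_ifs with h
        · simp only [w]
          rw [dif_pos (by omega)]
          exact congrArg v (Fin.ext (by simp; omega))
        · rw [← hv0]
          exact congrArg v (Fin.ext (by simp; omega))
      have hcomm : comp p (derU m w) = x - w := by
        funext i
        rw [← hxv, ← hCw, Pi.sub_apply, comp_apply p hm, derU_apply _ i]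
        have hl : derU m w ⟨m - 1, by omega⟩ = 0 := by
          rw [derU_apply, hwl, dif_neg (by simp; omega), add_zero]
        rw [hl, mul_zero, sub_zero, hCw]
        by_cases h0 : 0 < (i : ℕ)
        · rw [dif_pos h0, derU_apply]
          have e1 : w ⟨(i : ℕ) - 1, by omega⟩ = v i := by
            simp only [w]
            rw [dif_pos (by omega)]
            exact congrArg v (Fin.ext (by simp; omega))
          rw [e1, dif_pos (by simp; omega),
            show (⟨(i : ℕ) - 1 + 1, by omega⟩ : Fin m) = i from Fin.ext (by simp; omega)]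
          simp only [show (i : ℕ) - 1 + 1 = i by omega]
          by_cases h1 : (i : ℕ) + 1 < m
          · rw [dif_pos h1]
            simp only [w, dif_pos h1]
            push_cast
            ring
          · rw [dif_neg h1]
            simp only [w, dif_neg h1]
            ring
        · have hi : i = ⟨0, hm⟩ := Fin.ext (by simp; omega)
          subst hi
          rw [dif_neg h0, hv0]
          by_cases h1 : 0 + 1 < m
          · rw [dif_pos h1]
            simp [w, h1]
          · rw [dif_neg h1]
            simp [w, h1]
      have hA : (↑T⁻¹ : End F (Fin m → F)) x = x - w := by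
        have e : (↑T⁻¹ : End F (Fin m → F)) = ↑C * ↑U * ↑C⁻¹ * ↑U⁻¹ := by
          rw [show T⁻¹ = C * U * C⁻¹ * U⁻¹ by simp [T, mul_assoc]]
          rfl
        rw [e]
        simp only [Module.End.mul_apply]
        rw [← hv, ← hCw, ← hCv, inv_apply_unit, hCv, hUv, hcomm]
      have hwK : w ∈ K := by
        have h := K.sub_mem hx (hsur x hx)
        rwa [hA, sub_sub_cancel] at h
      have hw : w = 0 := ih w hwK fun i hi => by
        simp only [w]
        split_ifs with h
        · exact hvs m _ (by simp; omega) (Nat.le_add_left _ _)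
        · rfl
      rw [← hxv, ← hCw, hw, map_zero, map_zero]
  obtain ⟨r, e, he⟩ := exists_conj_comp (finrank_fin_fun F) (T : End F (Fin m → F)) l hobs
  refine ⟨r, ?_, ?_⟩
  · have h := det_comp r hm
    rw [← he, LinearEquiv.conj_apply, LinearMap.comp_assoc, LinearMap.det_conj] at h
    have hT : LinearMap.det (T : End F (Fin m → F)) = 1 := by
      show LinearMap.det ((U * C * U⁻¹ * C⁻¹ : (End F (Fin m → F))ˣ) : End F (Fin m → F)) = 1
      have hh : ∀ a : (End F (Fin m → F))ˣ, LinearMap.det (a : End F (Fin m → F)) *
          LinearMap.det ((a⁻¹ : (End F (Fin m → F))ˣ) : End F (Fin m → F)) = 1 := fun a => by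
        rw [← map_mul, Units.mul_inv, map_one]
      simp only [Units.val_mul, map_mul]
      rw [mul_assoc, mul_assoc, ← mul_assoc (LinearMap.det (C : End F (Fin m → F))),
        mul_comm (LinearMap.det (C : End F (Fin m → F))), mul_assoc, hh, mul_one, hh]
    rw [hT] at h
    calc r ⟨0, hm⟩ = (-1) ^ m * ((-1) ^ m * r ⟨0, hm⟩) := by
          rw [← mul_assoc, ← mul_pow]; simp
      _ = (-1) ^ m := by rw [← h, mul_one]
  · rw [← he, rep_conj_iff]
    exact ⟨U, C, rfl, by rw [hUv, det_derU], by rw [hCv],
      by rw [hCv]; exact aeval_comp_cpoly_self p⟩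

end CfsgLib.OreSU
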