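import Cfsg.Agent.Lib.OreSU.Corner
import Cfsg.Agent.Lib.OreOrth.Polys
import Cfsg.Agent.Lib.OreOrth.UTrick

/-!
The field with four elements as numerals below four, and a fast check of commutator certificates over it.
-/

set_option autoImplicit false
set_option linter.unusedSectionVars false

namespace CfsgLib.OreSU.Two

open Polynomial Matrix CfsgLib.OreOrth

/-- Multiplication of the numerals of the four elements. -/
def mulN (a b : ℕ) : ℕ :=
  if a = 0 ∨ b = 0 then 0 else if a = 1 then b else if b = 1 then a else
    if a ≠ b then 1 else if a = 2 then 3 else 2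

/-- Conjugation of the numerals. -/
def conjN (a : ℕ) : ℕ := if a = 2 then 3 else if a = 3 then 2 else a

/-- Sum of numerals. -/
def sumN (l : List ℕ) : ℕ := l.foldr (fun a b => a ^^^ b) 0

/-- The base four digit. -/
def dN (n x i j : ℕ) : ℕ := x / 4 ^ (i * n + j) % 4

variable {F : Type*} [Field F]

/-- The element of a numeral. -/
def el (w : F) (a : ℕ) : F := if a = 1 then 1 else if a = 2 then w else if a = 3 then 1 + w else 0

/-- The standing hypothesis: characteristic two and a primitive cube root of one. -/
structure IsOmega (w : F) : Prop where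
  two : (2 : F) = 0
  root : w ^ 2 + w + 1 = 0

theorem mulN_lt {a b : ℕ} (ha : a < 4) (hb : b < 4) : mulN a b < 4 := by
  interval_cases a <;> interval_cases b <;> decide

theorem xor_lt {a b : ℕ} (ha : a < 4) (hb : b < 4) : a ^^^ b < 4 := by
  interval_cases a <;> interval_cases b <;> decide

theorem dN_lt (n x i j : ℕ) : dN n x i j < 4 := Nat.mod_lt _ (by norm_num)

theorem sumN_lt : ∀ l : List ℕ, (∀ a ∈ l, a < 4) → sumN l < 4
  | [], _ => by decide
  | a :: l, h => xor_lt (h a List.mem_cons_self) (sumN_lt l fun x hx => h x (List.mem_cons_of_mem _ hx))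

variable {w : F}

theorem el_add (hw : IsOmega w) {a b : ℕ} (ha : a < 4) (hb : b < 4) : el w (a ^^^ b) = el w a + el w b := by
  have h2 := hw.two
  interval_cases a <;> interval_cases b <;> simp [el] <;> first
    | linear_combination -h2
    | linear_combination h2
    | linear_combination h2 * w
    | linear_combination -(h2 * w)
    | linear_combination h2 * (1 - w)
    | linear_combination h2 * (w - 1)
    | linear_combination h2 * (1 + w)
    | linear_combination -(h2 * (1 + w))
    | ring

theorem el_mul (hw : IsOmega w) {a b : ℕ} (ha : a < 4) (hb : b < 4) : el w (mulN a b) = el w a * el w b := by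
  have h2 := hw.two
  have hr := hw.root
  interval_cases a <;> interval_cases b <;> simp [el, mulN] <;> first
    | linear_combination -hr
    | linear_combination -hr + h2 * (w + 1)
    | linear_combination -hr + h2 * w
    | linear_combination hr
    | linear_combination -hr + h2
    | ring

theorem el_sum (hw : IsOmega w) : ∀ l : List ℕ, (∀ a ∈ l, a < 4) → el w (sumN l) = (l.map (el w)).sum
  | [], _ => by simp [sumN, el]
  | a :: l, h => by
    rw [List.map_cons, List.sum_cons, ← el_sum hw l fun x hx => h x (List.mem_cons_of_mem _ hx)]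
    exact el_add hw (h a List.mem_cons_self) (sumN_lt l fun x hx => h x (List.mem_cons_of_mem _ hx))

/-- The matrix of a numeral. -/
def mat (w : F) (n x : ℕ) : Matrix (Fin n) (Fin n) F := Matrix.of fun i j => el w (dN n x i j)

/-- `z` is the product of `x` and `y`. -/
def mulOK (n x y z : ℕ) : Bool :=
  (List.range n).all fun i => (List.range n).all fun j =>
    sumN ((List.range n).map fun k => mulN (dN n x i k) (dN n y k j)) == dN n z i j

theorem mat_mul (hw : IsOmega w) {n x y z : ℕ} (h : mulOK n x y z = true) :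
    mat w n x * mat w n y = mat w n z := by
  ext i j
  simp only [mulOK, List.all_eq_true, List.mem_range, beq_iff_eq] at h
  have h' := congrArg (el w) (h i i.isLt j j.isLt)
  rw [el_sum hw _ (fun a ha => by
    obtain ⟨k, _, rfl⟩ := List.mem_map.1 ha
    exact mulN_lt (dN_lt _ _ _ _) (dN_lt _ _ _ _)), List.map_map] at h'
  rw [Matrix.mul_apply]
  show ∑ k : Fin n, el w (dN n x i k) * el w (dN n y k j) = el w (dN n z i j)
  rw [← h', Fin.sum_univ_eq_sum_range (fun k => el w (dN n x i k) * el w (dN n y k j)) n]
  rw [Finset.sum, Finset.range_val, Multiset.range, Multiset.map_coe, Multiset.sum_coe]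
  exact congrArg List.sum (List.map_congr_left fun k _ => (el_mul hw (dN_lt _ _ _ _) (dN_lt _ _ _ _)).symm)

/-- Every entry satisfies `p`. -/
def entOK (n : ℕ) (p : ℕ → ℕ → Bool) : Bool :=
  (List.range n).all fun i => (List.range n).all fun j => p i j

theorem entOK_apply {n : ℕ} {p : ℕ → ℕ → Bool} (h : entOK n p = true) (i j : Fin n) : p i j = true := by
  simp only [entOK, List.all_eq_true, List.mem_range] at h
  exact h i i.isLt j j.isLt

/-- Entry of a companion block of numerals. -/
def compN (g : List ℕ) (i j : ℕ) : ℕ :=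
  if j + 1 < g.length then (if i = j + 1 then 1 else 0) else g.getD i 0

/-- The numerals of a certificate. -/
structure Dat where
  key : List ℕ
  pol : List ℕ
  t : ℕ
  g : ℕ
  g' : ℕ
  a : ℕ
  c : ℕ
  ac : ℕ
  l : ℕ
  u : ℕ
  b : ℕ

/-- The product of numerals. -/
def prodN (l : List ℕ) : ℕ := l.foldr mulN 1

/-- The check of a certificate, with the auxiliary product recomputed digit by digit. -/
def chk (D : Dat) : Bool :=
  let n := D.key.length
  decide (0 < n) && decide (D.pol.length = n) && decide (D.pol.getD 0 0 = 1) &&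
    entOK n (fun i j => dN n D.t i j == compN D.key i j) && entOK n (fun i j => dN n D.c i j == compN D.pol i j) &&
    entOK n (fun i j => !(decide (i < j)) || dN n D.l i j == 0) &&
    entOK n (fun i j => !(i == j) || dN n D.l i j == 1) &&
    entOK n (fun i j => !(decide (j < i)) || dN n D.u i j == 0) &&
    (prodN ((List.range n).map fun i => dN n D.u i i) == 1) &&
    entOK n (fun i j => sumN ((List.range n).map fun k => mulN (dN n D.g i k) (dN n D.g' k j)) ==
      if i == j then 1 else 0) &&
    entOK n (fun i j => sumN ((List.range n).map fun k => mulN (dN n D.t i k) (dN n D.g k j)) ==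
      sumN ((List.range n).map fun k => mulN (dN n D.g i k) (dN n D.a k j))) &&
    mulOK n D.a D.c D.ac && mulOK n D.l D.u D.b &&
    entOK n (fun i j => sumN ((List.range n).map fun k => mulN (dN n D.ac i k) (dN n D.b k j)) ==
      sumN ((List.range n).map fun k => mulN (dN n D.b i k) (dN n D.c k j)))

theorem mat_mul_apply (hw : IsOmega w) (n x y : ℕ) (i j : Fin n) :
    (mat w n x * mat w n y) i j =
      el w (sumN ((List.range n).map fun k => mulN (dN n x i k) (dN n y k j))) := by
  rw [el_sum hw _ (fun a ha => by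
    obtain ⟨k, _, rfl⟩ := List.mem_map.1 ha
    exact mulN_lt (dN_lt _ _ _ _) (dN_lt _ _ _ _)), List.map_map, Matrix.mul_apply]
  show ∑ k : Fin n, el w (dN n x i k) * el w (dN n y k j) = _
  rw [Fin.sum_univ_eq_sum_range (fun k => el w (dN n x i k) * el w (dN n y k j)) n]
  rw [Finset.sum, Finset.range_val, Multiset.range, Multiset.map_coe, Multiset.sum_coe]
  exact congrArg List.sum (List.map_congr_left fun k _ => (el_mul hw (dN_lt _ _ _ _) (dN_lt _ _ _ _)).symm)

theorem el_prod (hw : IsOmega w) : ∀ l : List ℕ, (∀ a ∈ l, a < 4) →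
    el w (prodN l) = (l.map (el w)).prod ∧ prodN l < 4
  | [], _ => by simp [prodN, el]
  | a :: l, h => by
    obtain ⟨h1, h2⟩ := el_prod hw l fun x hx => h x (List.mem_cons_of_mem _ hx)
    have ha := h a List.mem_cons_self
    exact ⟨by rw [List.map_cons, List.prod_cons, ← h1]; exact el_mul hw ha h2, mulN_lt ha h2⟩

/-- The coefficient vector over `F` of a numeral list. -/
def vecE (w : F) (g : List ℕ) : Fin g.length → F := fun i => el w (g.get i)

theorem neg_eq (hw : IsOmega w) (x : F) : -x = x := by linear_combination -x * hw.two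

theorem compN_el (hw : IsOmega w) (g : List ℕ) {n : ℕ} (hn : g.length = n) (i j : Fin n) :
    el w (compN g i j) = compM (fun i : Fin n => el w (g.getD i 0)) i j := by
  subst hn
  simp only [compN, compM, Matrix.of_apply]
  split_ifs <;> simp [el, neg_eq hw]

theorem cpoly_cast {d d' : ℕ} (h : d = d') (c : Fin d' → F) : cpoly (fun i => c (Fin.cast h i)) = cpoly c := by
  subst h
  rfl

/-- A checked certificate gives a representation of the companion block. -/
theorem rep_of_chk (hw : IsOmega w) (D : Dat) (h : chk D = true) :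
    D.pol.length = D.key.length ∧
      Rep (cpoly (vecE w D.pol)) (comp (vecE w D.key)) 1 1 := by
  simp only [chk, Bool.and_eq_true, decide_eq_true_eq] at h
  obtain ⟨⟨⟨⟨⟨⟨⟨⟨⟨⟨⟨⟨⟨hpos, hlen⟩, hc0⟩, ht⟩, hc⟩, hl0⟩, hl1⟩, hu0⟩, hu1⟩, h1⟩, h2⟩, h3⟩, h4⟩, h5⟩ := h
  refine ⟨hlen, ?_⟩
  set n := D.key.length with hn
  have hT : mat w n D.t = compM (fun i : Fin n => el w (D.key.getD i 0)) := by
    ext i j
    have := entOK_apply ht i j
    rw [beq_iff_eq] at this
    show el w (dN n D.t i j) = _
    rw [this, compN_el hw _ hn.symm]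
  have hC : mat w n D.c = compM (fun i : Fin n => el w (D.pol.getD i 0)) := by
    ext i j
    have := entOK_apply hc i j
    rw [beq_iff_eq] at this
    show el w (dN n D.c i j) = _
    rw [this, compN_el hw _ hlen]
  have e1 : mat w n D.g * mat w n D.g' = 1 := by
    ext i j
    have := entOK_apply h1 i j
    rw [beq_iff_eq] at this
    rw [mat_mul_apply hw, this, Matrix.one_apply]
    simp only [beq_iff_eq, Fin.ext_iff]
    split_ifs <;> simp [el]
  have e2 : mat w n D.t * mat w n D.g = mat w n D.g * mat w n D.a := by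
    ext i j
    have := entOK_apply h2 i j
    rw [beq_iff_eq] at this
    rw [mat_mul_apply hw, mat_mul_apply hw, this]
  have e3 : mat w n D.a * mat w n D.c * (mat w n D.l * mat w n D.u) =
      mat w n D.l * mat w n D.u * mat w n D.c := by
    rw [mat_mul hw h3, mat_mul hw h4]
    ext i j
    have := entOK_apply h5 i j
    rw [beq_iff_eq] at this
    rw [mat_mul_apply hw, mat_mul_apply hw, this]
  have dL : (mat w n D.l).det = 1 := by
    rw [Matrix.det_of_isLowerTriangular (mat w n D.l) (fun i j hij => ?_)]
    · refine Finset.prod_eq_one fun i _ => ?_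
      have := entOK_apply hl1 i i
      show el w (dN n D.l i i) = 1
      simp at this
      simp [this, el]
    · have hlt : (i : ℕ) < (j : ℕ) := hij
      have := entOK_apply hl0 i j
      show el w (dN n D.l i j) = 0
      simp [hlt] at this
      simp [this, el]
  have dU : (mat w n D.u).det = 1 := by
    rw [Matrix.det_of_isUpperTriangular (fun i j hij => ?_)]
    · rw [beq_iff_eq] at hu1
      have h' := congrArg (el w) hu1
      rw [(el_prod hw _ (fun a ha => by
        obtain ⟨k, _, rfl⟩ := List.mem_map.1 ha
        exact dN_lt _ _ _ _)).1, List.map_map] at h'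
      show ∏ i : Fin n, el w (dN n D.u i i) = 1
      rw [Fin.prod_univ_eq_prod_range (fun i => el w (dN n D.u i i)) n, Finset.prod, Finset.range_val,
        Multiset.range, Multiset.map_coe, Multiset.prod_coe]
      simpa [el, Function.comp_def] using h'
    · have hlt : (j : ℕ) < (i : ℕ) := hij
      have := entOK_apply hu0 i j
      show el w (dN n D.u i j) = 0
      simp [hlt] at this
      simp [this, el]
  set B := mat w n D.l * mat w n D.u with hB
  have dB : B.det = 1 := by rw [hB, Matrix.det_mul, dL, dU, one_mul]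
  set cv : Fin n → F := fun i => el w (D.pol.getD i 0) with hcv
  set kv : Fin n → F := fun i => el w (D.key.getD i 0) with hkv
  have dC : LinearMap.det (comp cv) = 1 := by
    rw [det_comp cv hpos, hcv]
    show (-1) ^ n * el w (D.pol.getD 0 0) = 1
    rw [hc0, show el w 1 = (1 : F) from rfl, mul_one, show (-1 : F) = 1 from neg_eq hw 1, one_pow]
  have hG' : mat w n D.g' * mat w n D.g = 1 := mul_eq_one_comm.1 e1
  obtain ⟨b, hb⟩ : IsUnit (M := Module.End F (Fin n → F)) (Matrix.toLin' B) :=
    LinearMap.isUnit_iff_isUnit_det _ |>.2 (by rw [LinearMap.det_toLin', dB]; exact isUnit_one)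
  obtain ⟨H, hH⟩ : IsUnit (comp cv) := LinearMap.isUnit_iff_isUnit_det _ |>.2 (by rw [dC]; exact isUnit_one)
  have r := rep_of_mul (P := cpoly cv) (T := Matrix.toLin' (mat w n D.a)) b H (by
    rw [hb, hH, ← toLin'_compM, hcv, ← hC, Module.End.mul_eq_comp, Module.End.mul_eq_comp, Module.End.mul_eq_comp,
      ← Matrix.toLin'_mul, ← Matrix.toLin'_mul, ← Matrix.toLin'_mul, hB, e3])
    (by rw [hH]; exact aeval_comp_cpoly cv)
  rw [hb, hH, dC, LinearMap.det_toLin', dB] at r
  let e : (Fin n → F) ≃ₗ[F] (Fin n → F) := Matrix.toLin'OfInv hG' e1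
  have he : Matrix.toLin' (mat w n D.t) = e.conj (Matrix.toLin' (mat w n D.a)) := by
    refine LinearMap.ext fun x => ?_
    have : mat w n D.t = mat w n D.g * mat w n D.a * mat w n D.g' := by rw [← e2, mul_assoc, e1, mul_one]
    rw [this, LinearEquiv.conj_apply_apply]
    simp [e, Matrix.toLin'OfInv, Matrix.mulVec_mulVec, mul_assoc]
  have r' := r.map e
  rw [← he, hT, toLin'_compM] at r'
  have hk : kv = vecE w D.key := by
    funext i
    exact congrArg (el w) (List.getD_eq_getElem _ _ i.isLt)
  have hp : cpoly cv = cpoly (vecE w D.pol) := by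
    have : cv = fun i => vecE w D.pol (Fin.cast hlen.symm i) := by
      funext i
      exact congrArg (el w) (List.getD_eq_getElem _ _ (by rw [hlen]; exact i.isLt))
    rw [this]
    exact cpoly_cast hlen.symm _
  rw [← hp, ← hk]
  exact r'

/-- Sum of numeral lists. -/
def addL4 : List ℕ → List ℕ → List ℕ
  | [], b => b
  | a, [] => a
  | x :: a, y :: b => (x ^^^ y) :: addL4 a b

/-- Product of numeral lists. -/
def mulL4 : List ℕ → List ℕ → List ℕ
  | [], _ => []
  | x :: a, b => addL4 (b.map (mulN x)) (0 :: mulL4 a b)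

theorem addL4_spec (hw : IsOmega w) : ∀ a b : List ℕ, (∀ x ∈ a, x < 4) → (∀ x ∈ b, x < 4) →
    (addL4 a b).map (el w) = addL (a.map (el w)) (b.map (el w)) ∧ ∀ x ∈ addL4 a b, x < 4
  | [], b, _, hb => by simpa [addL4, addL] using hb
  | x :: a, [], ha, _ => by simpa [addL4, addL] using ha
  | x :: a, y :: b, ha, hb => by
    obtain ⟨h1, h2⟩ := addL4_spec hw a b (fun z hz => ha z (List.mem_cons_of_mem _ hz))
      fun z hz => hb z (List.mem_cons_of_mem _ hz)
    have hx := ha x List.mem_cons_self
    have hy := hb y List.mem_cons_self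
    refine ⟨by simp [addL4, addL, h1, el_add hw hx hy], fun z hz => ?_⟩
    rcases List.mem_cons.1 hz with rfl | hz
    · exact xor_lt hx hy
    · exact h2 z hz

theorem mulL4_spec (hw : IsOmega w) : ∀ a b : List ℕ, (∀ x ∈ a, x < 4) → (∀ x ∈ b, x < 4) →
    (mulL4 a b).map (el w) = mulL (a.map (el w)) (b.map (el w)) ∧ ∀ x ∈ mulL4 a b, x < 4
  | [], b, _, _ => by simp [mulL4, mulL]
  | x :: a, b, ha, hb => by
    obtain ⟨h1, h2⟩ := mulL4_spec hw a b (fun z hz => ha z (List.mem_cons_of_mem _ hz)) hb
    have hx := ha x List.mem_cons_self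
    have hm : ∀ z ∈ b.map (mulN x), z < 4 := fun z hz => by
      obtain ⟨y, hy, rfl⟩ := List.mem_map.1 hz
      exact mulN_lt hx (hb y hy)
    have h0 : ∀ z ∈ 0 :: mulL4 a b, z < 4 := fun z hz => by
      rcases List.mem_cons.1 hz with rfl | hz
      · decide
      · exact h2 z hz
    obtain ⟨k1, k2⟩ := addL4_spec hw _ _ hm h0
    refine ⟨?_, k2⟩
    rw [mulL4, k1, List.map_cons, List.map_cons, mulL, h1]
    congr 1
    · rw [List.map_map, List.map_map]
      exact List.map_congr_left fun y hy => el_mul hw hx (hb y hy)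

end CfsgLib.OreSU.Two
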